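import Cfsg.Agent.Lib.Helper81.Subsections
import Cfsg.Agent.Lib.Helper81.BlockRank
import Cfsg.Agent.Lib.Helper81.Heights
import Cfsg.Agent.Lib.Helper80.BlockBasic
import Cfsg.Agent.S0936

set_option autoImplicit false
open Cfsg
open scoped ComplexConjugate
open Cfsg.Agent.Lib.Helper20 Cfsg.Agent.Lib.Helper81

namespace Cfsg.Agent.Lib.Helper78

variable {G : Type*} [Group G] [Fintype G] {p : ℕ} {M : Ideal AlgInt}

open Classical in
/-- The contribution of the section of `1` to `k(B)` is `l(B)`. -/
theorem sum_induced_one (hM : IsPModular p M) (B : Set (IrrCharacter G)) (hB : IsPBlock M B)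
    [Fintype (Set (IrrCharacter (Subgroup.centralizer ({(1 : G)} : Set G))))] :
    ∑ b : Set (IrrCharacter (Subgroup.centralizer ({(1 : G)} : Set G))),
      (if IsInducedBlock M (Subgroup.centralizer ({(1 : G)} : Set G)) b B then (blockRank p b : ℂ)
        else 0) = (blockRank p B : ℂ) := by
  have : Finite (IrrCharacter G) := Helper20.finite_irrCharacter
  have : Fintype (IrrCharacter G) := Fintype.ofFinite _
  have hG : (Nat.card G : ℂ) ≠ 0 := Helper20.card_ne_zero_complex
  have htop : Subgroup.centralizer ({(1 : G)} : Set G) = ⊤ := by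
    rw [eq_top_iff]
    intro g _
    rw [Subgroup.mem_centralizer_iff]
    intro v hv
    rw [Set.mem_singleton_iff] at hv
    rw [hv, one_mul, mul_one]
  have hcard : Nat.card (Subgroup.centralizer ({(1 : G)} : Set G)) = Nat.card G := by
    rw [htop, Subgroup.card_top]
  have h1 := section_sum hM (1 : G) ⟨0, by simp⟩ B hB
  have h2 := card_mul_blockRank hM B hB
  rw [hcard] at h1
  apply mul_left_cancel₀ hG
  rw [← h1, h2]
  have h3 : ∀ x : G, ∑ᶠ χ ∈ B, pRegularPart p (χ : G → ℂ) x * (χ : G → ℂ) x⁻¹
      = ∑ χ : IrrCharacter G, if χ ∈ B then pRegularPart p (χ : G → ℂ) x * (χ : G → ℂ) x⁻¹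
        else 0 := by
    intro x
    rw [finsum_mem_irr]
  rw [Finset.sum_congr rfl (fun x _ => h3 x), Finset.sum_comm]
  apply Finset.sum_congr rfl; intro χ _
  split_ifs with hχ
  · rw [← sum_subgroup_eq (Subgroup.centralizer ({(1 : G)} : Set G))
      (fun x => pRegularPart p (χ : G → ℂ) x * (χ : G → ℂ) x⁻¹)
      (fun g hg => absurd (htop ▸ Subgroup.mem_top g) hg)]
    apply Finset.sum_congr rfl; intro y _
    simp only [pRegularPart_eq, one_mul, inv_one, Subgroup.coe_inv, IsPRegular,
      Subgroup.orderOf_coe]
    by_cases hy : p ∣ orderOf y <;> simp [hy]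
  · simp

/-- The defect of the principal block. -/
theorem blockDefect_principalBlock (hM : IsPModular p M) :
    blockDefect p (principalBlock M G) = (Nat.card G).factorization p := by
  have h1 := blockDefect_add (p := p) (B := principalBlock M G)
    ⟨_, Helper80.trivIrr_mem_principalBlock hM⟩
  have h2 := minDeg_le (p := p) (Helper80.trivIrr_mem_principalBlock (G := G) hM)
  have h3 : nuDeg p (Helper80.trivIrr G) = 0 := by
    have : charDegree ((Helper80.trivIrr G : IrrCharacter G) : G → ℂ) = 1 := by
      have h4 := irr_one_eq (Helper80.trivIrr G)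
      have h5 : ((Helper80.trivIrr G : IrrCharacter G) : G → ℂ) 1 = 1 := rfl
      rw [h5] at h4
      exact_mod_cast h4.symm
    unfold nuDeg
    rw [this]; simp
  omega

open Classical in
/-- The contribution of the section of a `p`-element `x` to `k(B₀)` is `l(b₀(C(x)))`. -/
theorem sum_induced_principal (hM : IsPModular p M) (x : G) (hx : ∃ k : ℕ, orderOf x = p ^ k)
    [Fintype (Set (IrrCharacter (Subgroup.centralizer ({x} : Set G))))] :
    ∑ b : Set (IrrCharacter (Subgroup.centralizer ({x} : Set G))),
      (if IsInducedBlock M (Subgroup.centralizer ({x} : Set G)) b (principalBlock M G)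
        then (blockRank p b : ℂ) else 0)
      = (blockRank p (principalBlock M (Subgroup.centralizer ({x} : Set G))) : ℂ) := by
  have : Fact p.Prime := ⟨hM.1⟩
  rw [Finset.sum_eq_single (principalBlock M (Subgroup.centralizer ({x} : Set G)))]
  · rw [if_pos]
    exact (Cfsg.Agent.S0936.result p M hM _ _ (inducedBlockDefined_centralizer hM x hx _
      (Helper80.isPBlock_principal M))).2 rfl
  · intro b _ hb
    rw [if_neg]
    intro h
    exact hb ((Cfsg.Agent.S0936.result p M hM _ _
      (inducedBlockDefined_centralizer hM x hx _ h.1)).1 h)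
  · intro h; exact absurd (Finset.mem_univ _) h

end Cfsg.Agent.Lib.Helper78
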