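import Cfsg.Agent.Lib.Helper78.DimBlock
import Cfsg.Agent.Lib.Helper21.DefectCard

set_option autoImplicit false
open Cfsg
open scoped ComplexConjugate
open Cfsg.Agent.Lib.Helper20 Cfsg.Agent.Lib.Helper81

namespace Cfsg.Agent.Lib.Helper78

/-- Bezout for the gcd of a finite family of natural numbers. -/
theorem exists_bezout_finset {ι : Type*} [DecidableEq ι] (s : Finset ι) (f : ι → ℕ) :
    ∃ n : ι → ℤ, ∑ i ∈ s, n i * (f i : ℤ) = ((s.gcd f : ℕ) : ℤ) := by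
  induction s using Finset.induction_on with
  | empty => exact ⟨fun _ => 0, by simp⟩
  | insert a s ha ih =>
    obtain ⟨n, hn⟩ := ih
    refine ⟨fun i => if i = a then Nat.gcdA (f a) (s.gcd f) else Nat.gcdB (f a) (s.gcd f) * n i, ?_⟩
    rw [Finset.sum_insert ha, Finset.gcd_insert]
    simp only [if_true]
    have h1 : ∑ i ∈ s, (if i = a then Nat.gcdA (f a) (s.gcd f)
        else Nat.gcdB (f a) (s.gcd f) * n i) * (f i : ℤ)
        = Nat.gcdB (f a) (s.gcd f) * ∑ i ∈ s, n i * (f i : ℤ) := by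
      rw [Finset.mul_sum]
      apply Finset.sum_congr rfl; intro i hi
      have hia : i ≠ a := fun h => ha (h ▸ hi)
      rw [if_neg hia]; ring
    rw [h1, hn]
    have h2 := Nat.gcd_eq_gcd_ab (f a) (s.gcd f)
    show _ = ((Nat.gcd (f a) (s.gcd f) : ℕ) : ℤ)
    rw [h2]; ring

variable {G : Type*} [Group G] [Fintype G] {p : ℕ} {M : Ideal AlgInt}

/-- In a block with `l(B) = 1` the restrictions to `p`-regular elements are proportional. -/
theorem pRegularPart_eq_smul_of_blockRank_one {B : Set (IrrCharacter G)} (hp : p.Prime)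
    (hl : blockRank p B = 1) {χ₀ χ : IrrCharacter G} (hχ₀ : χ₀ ∈ B) (hχ : χ ∈ B) :
    pRegularPart p (χ : G → ℂ)
      = ((charDegree (χ : G → ℂ) : ℂ) / (charDegree (χ₀ : G → ℂ) : ℂ)) •
        pRegularPart p (χ₀ : G → ℂ) := by
  have hreg1 : IsPRegular p (1 : G) := by
    simp only [IsPRegular, orderOf_one, Nat.dvd_one]; exact hp.one_lt.ne'
  have hd0 : (charDegree (χ₀ : G → ℂ) : ℂ) ≠ 0 := by exact_mod_cast charDegree_ne_zero χ₀
  set W := Submodule.span ℂ ((fun χ : IrrCharacter G => pRegularPart p (χ : G → ℂ)) '' B) with hW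
  have hm0 : pRegularPart p (χ₀ : G → ℂ) ∈ W := Submodule.subset_span ⟨χ₀, hχ₀, rfl⟩
  have hm : pRegularPart p (χ : G → ℂ) ∈ W := Submodule.subset_span ⟨χ, hχ, rfl⟩
  have hne : (⟨_, hm0⟩ : W) ≠ 0 := by
    intro h
    have h1 : pRegularPart p (χ₀ : G → ℂ) = 0 := congrArg Subtype.val h
    have h2 := congrFun h1 1
    rw [pRegularPart_apply_of_reg hreg1, irr_one_eq] at h2
    exact hd0 h2
  obtain ⟨c, hc⟩ := (finrank_eq_one_iff_of_nonzero' (⟨_, hm0⟩ : W) hne).1 hl ⟨_, hm⟩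
  have hc' : c • pRegularPart p (χ₀ : G → ℂ) = pRegularPart p (χ : G → ℂ) :=
    congrArg Subtype.val hc
  have h1 := congrFun hc' 1
  rw [Pi.smul_apply, pRegularPart_apply_of_reg hreg1, pRegularPart_apply_of_reg hreg1,
    irr_one_eq, irr_one_eq, smul_eq_mul] at h1
  rw [← hc', ← h1]
  congr 1
  field_simp

open Classical in
/-- **Blocks with one irreducible Brauer character**: decomposition numbers and the Cartan
invariant. -/
theorem rank_one_structure (hM : IsPModular p M) {B : Set (IrrCharacter G)} (hB : IsPBlock M B)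
    (hl : blockRank p B = 1) [Fintype (IrrCharacter G)] :
    ∃ (φ : G → ℂ) (d : IrrCharacter G → ℕ) (n : IrrCharacter G → ℤ),
      (∀ x, IsPRegular p x → φ x = ∑ ψ : IrrCharacter G,
        if ψ ∈ B then (n ψ : ℂ) * (ψ : G → ℂ) x else 0) ∧
      (∀ χ ∈ B, ∀ x, IsPRegular p x → (χ : G → ℂ) x = (d χ : ℂ) * φ x) ∧
      (∑ χ : IrrCharacter G, if χ ∈ B then d χ ^ 2 else 0) = p ^ blockDefect p B := by
  have hp := hM.1
  obtain ⟨χ₀, hχ₀, hmin⟩ := exists_minDeg (p := p) (isPBlock_nonempty hM hB)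
  set s := Finset.univ.filter (fun v : IrrCharacter G => v ∈ B) with hs
  have hmem : ∀ χ, χ ∈ s ↔ χ ∈ B := fun χ => by simp [hs]
  set g := s.gcd (fun χ => charDegree (χ : G → ℂ)) with hg
  have hgdvd : ∀ χ ∈ B, g ∣ charDegree (χ : G → ℂ) := fun χ hχ =>
    Finset.gcd_dvd (f := fun χ : IrrCharacter G => charDegree (χ : G → ℂ)) ((hmem χ).2 hχ)
  have hg0 : g ≠ 0 := by
    intro h
    have := hgdvd χ₀ hχ₀
    rw [h, zero_dvd_iff] at this
    exact charDegree_ne_zero χ₀ this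
  set d : IrrCharacter G → ℕ := fun χ => charDegree (χ : G → ℂ) / g with hd
  have hdg : ∀ χ ∈ B, charDegree (χ : G → ℂ) = d χ * g := fun χ hχ =>
    (Nat.div_mul_cancel (hgdvd χ hχ)).symm
  obtain ⟨n, hn⟩ := exists_bezout_finset s (fun χ => charDegree (χ : G → ℂ))
  rw [← hg] at hn
  have hnd : ∑ χ ∈ s, n χ * (d χ : ℤ) = 1 := by
    have h1 : (∑ χ ∈ s, n χ * (d χ : ℤ)) * (g : ℤ) = 1 * (g : ℤ) := by
      rw [one_mul, Finset.sum_mul]
      refine Eq.trans ?_ hn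
      apply Finset.sum_congr rfl; intro χ hχ
      rw [hdg χ ((hmem χ).1 hχ)]; push_cast; ring
    exact mul_right_cancel₀ (by exact_mod_cast hg0) h1
  have hgC : (g : ℂ) ≠ 0 := by exact_mod_cast hg0
  have hD0 : (charDegree (χ₀ : G → ℂ) : ℂ) ≠ 0 := by exact_mod_cast charDegree_ne_zero χ₀
  have hd0 : (d χ₀ : ℂ) ≠ 0 := by
    intro h
    apply hD0
    rw [hdg χ₀ hχ₀]; push_cast; rw [h, zero_mul]
  have hratio : ∀ χ ∈ B, (charDegree (χ : G → ℂ) : ℂ) / (charDegree (χ₀ : G → ℂ) : ℂ)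
      = (d χ : ℂ) / (d χ₀ : ℂ) := by
    intro χ hχ
    rw [hdg χ hχ, hdg χ₀ hχ₀]; push_cast
    field_simp
  have hprop : ∀ χ ∈ B, pRegularPart p (χ : G → ℂ)
      = ((d χ : ℂ) / (d χ₀ : ℂ)) • pRegularPart p (χ₀ : G → ℂ) := by
    intro χ hχ
    rw [← hratio χ hχ]
    exact pRegularPart_eq_smul_of_blockRank_one hp hl hχ₀ hχ
  have hval : ∀ χ ∈ B, ∀ x, IsPRegular p x →
      (χ : G → ℂ) x = (d χ : ℂ) / (d χ₀ : ℂ) * (χ₀ : G → ℂ) x := by
    intro χ hχ x hx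
    have h1 := congrFun (hprop χ hχ) x
    rwa [Pi.smul_apply, pRegularPart_apply_of_reg hx, pRegularPart_apply_of_reg hx,
      smul_eq_mul] at h1
  refine ⟨fun x => (1 : ℂ) / (d χ₀ : ℂ) * (χ₀ : G → ℂ) x, d, n, ?_, ?_, ?_⟩
  · intro x hx
    rw [← Finset.sum_filter]
    have h1 : ∑ ψ ∈ s, (n ψ : ℂ) * (ψ : G → ℂ) x
        = (∑ ψ ∈ s, (n ψ : ℂ) * (d ψ : ℂ)) * ((1 : ℂ) / (d χ₀ : ℂ) * (χ₀ : G → ℂ) x) := by
      rw [Finset.sum_mul]
      apply Finset.sum_congr rfl; intro ψ hψ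
      rw [hval ψ ((hmem ψ).1 hψ) x hx]; ring
    have h2 : (∑ ψ ∈ s, (n ψ : ℂ) * (d ψ : ℂ)) = 1 := by exact_mod_cast hnd
    rw [h1, h2, one_mul]
  · intro χ hχ x hx
    rw [hval χ hχ x hx]; ring
  · -- the Cartan invariant
    set δ := blockDefect p B with hδ
    set μ : ℂ := mC p (χ₀ : G → ℂ) (χ₀ : G → ℂ) / (d χ₀ : ℂ) ^ 2 with hμ
    have hm : ∀ χ ∈ B, ∀ ψ ∈ B, mC p (χ : G → ℂ) (ψ : G → ℂ) = (d χ : ℂ) * (d ψ : ℂ) * μ := by
      intro χ hχ ψ hψ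
      have h1 : ∀ χ ∈ B, ∀ ψ : IrrCharacter G, mC p (χ : G → ℂ) (ψ : G → ℂ)
          = (d χ : ℂ) / (d χ₀ : ℂ) * mC p (χ₀ : G → ℂ) (ψ : G → ℂ) := by
        intro χ hχ ψ
        unfold mC
        rw [hprop χ hχ, classInner_smul_left]
      rw [h1 χ hχ ψ, mC_symm χ₀ ψ, h1 ψ hψ χ₀, hμ]
      field_simp
    have hμ0 : μ ≠ 0 := by
      intro h
      have h1 := kC_spec hM χ₀ hχ₀
      rw [hm χ₀ hχ₀ χ₀ hχ₀, h, mul_zero, mul_zero] at h1
      have h2 : kC p B χ₀ χ₀ = 0 := by exact_mod_cast h1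
      exact not_dvd_kC_self hM hB hχ₀ hmin (h2 ▸ dvd_zero _)
    set c := ∑ χ ∈ s, d χ ^ 2 with hc
    have hμc : μ * (c : ℂ) = 1 := by
      have h1 := sum_mC_sq hp χ₀
      have h2 : ∑ ψ : IrrCharacter G, mC p (χ₀ : G → ℂ) (ψ : G → ℂ) * mC p (χ₀ : G → ℂ) (ψ : G → ℂ)
          = ∑ ψ ∈ s, ((d χ₀ : ℂ) * (d ψ : ℂ) * μ) * ((d χ₀ : ℂ) * (d ψ : ℂ) * μ) := by
        rw [hs, Finset.sum_filter]
        apply Finset.sum_congr rfl; intro ψ _
        split_ifs with hψ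
        · rw [hm χ₀ hχ₀ ψ hψ]
        · have : ¬ SameBlock M (χ₀ : G → ℂ) (ψ : G → ℂ) := by
            intro h
            apply hψ
            rw [isPBlock_eq_blockOf hM hB hχ₀]
            exact h
          rw [mC_eq_zero hM this, mul_zero]
      rw [h2, hm χ₀ hχ₀ χ₀ hχ₀] at h1
      have h3 : ∑ ψ ∈ s, ((d χ₀ : ℂ) * (d ψ : ℂ) * μ) * ((d χ₀ : ℂ) * (d ψ : ℂ) * μ)
          = ((d χ₀ : ℂ) * (d χ₀ : ℂ) * μ) * (μ * (c : ℂ)) := by
        rw [hc]; push_cast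
        rw [Finset.mul_sum, Finset.mul_sum]
        apply Finset.sum_congr rfl; intro ψ _
        ring
      rw [h3] at h1
      have h4 : (d χ₀ : ℂ) * (d χ₀ : ℂ) * μ ≠ 0 := mul_ne_zero (mul_ne_zero hd0 hd0) hμ0
      exact mul_left_cancel₀ h4 (by rw [h1, mul_one])
    set K : ℤ := ∑ χ ∈ s, ∑ ψ ∈ s, n χ * n ψ * kC p B χ ψ with hK
    have hKC : (K : ℂ) = (p : ℂ) ^ δ * μ := by
      rw [hK]; push_cast
      have h1 : ∀ χ ∈ s, ∀ ψ ∈ s, (n χ : ℂ) * (n ψ : ℂ) * (kC p B χ ψ : ℂ)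
          = (p : ℂ) ^ δ * μ * ((n χ : ℂ) * (d χ : ℂ)) * ((n ψ : ℂ) * (d ψ : ℂ)) := by
        intro χ hχ ψ hψ
        rw [kC_spec hM χ ((hmem ψ).1 hψ), hm χ ((hmem χ).1 hχ) ψ ((hmem ψ).1 hψ)]; ring
      rw [Finset.sum_congr rfl (fun χ hχ => Finset.sum_congr rfl (fun ψ hψ => h1 χ hχ ψ hψ))]
      have h2 : (∑ ψ ∈ s, (n ψ : ℂ) * (d ψ : ℂ)) = 1 := by exact_mod_cast hnd
      simp only [← Finset.mul_sum, h2, mul_one]
    have hKc : K * (c : ℤ) = (p : ℤ) ^ δ := by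
      have : (K : ℂ) * (c : ℂ) = (p : ℂ) ^ δ := by rw [hKC, mul_assoc, hμc, mul_one]
      exact_mod_cast this
    have hk0 : kC p B χ₀ χ₀ = K * (d χ₀ : ℤ) ^ 2 := by
      have : (kC p B χ₀ χ₀ : ℂ) = (K : ℂ) * (d χ₀ : ℂ) ^ 2 := by
        rw [kC_spec hM χ₀ hχ₀, hm χ₀ hχ₀ χ₀ hχ₀, hKC]; ring
      exact_mod_cast this
    have hcdvd : c ∣ p ^ δ := by
      have : (c : ℤ) ∣ ((p ^ δ : ℕ) : ℤ) := ⟨K, by push_cast; rw [← hKc]; ring⟩
      exact_mod_cast this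
    obtain ⟨j, hj, hcj⟩ := (Nat.dvd_prime_pow hp).1 hcdvd
    rw [← Finset.sum_filter, ← hs, ← hc, hcj]
    by_contra hne
    have hlt : j < δ := lt_of_le_of_ne hj (fun h => hne (by rw [h]))
    apply not_dvd_kC_self hM hB hχ₀ hmin
    rw [hk0]
    apply Dvd.dvd.mul_right
    have hpj : ((p : ℤ) ^ j) ≠ 0 := pow_ne_zero _ (by exact_mod_cast hp.ne_zero)
    have h5 : K = (p : ℤ) ^ (δ - j) := by
      apply mul_right_cancel₀ hpj
      rw [← pow_add, Nat.sub_add_cancel hj, ← hKc, hcj]; push_cast; ring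
    rw [h5]
    exact dvd_pow_self _ (by omega)

end Cfsg.Agent.Lib.Helper78
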