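import Mathlib
import Cfsg.Agent.Lib.Helper80.GASat
import Cfsg.Agent.Lib.Helper80.GAFus

set_option autoImplicit false
set_option linter.unusedSectionVars false
open Cfsg
open Cfsg.Agent.Lib.Helper80 Cfsg.Agent.Lib.Helper80.GA

/-! Fusion of Brauer pairs on subgroups centralised by the defect group is controlled by the
stabiliser of the maximal pair (Burnside's argument). -/

namespace Cfsg.Agent.Lib.Helper78

variable {k : Type*} {G : Type*} [Field k] [Group G] [Fintype G]
variable {p : ℕ} [Fact p.Prime] [CharP k p]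

/-- pairs on subgroups centralised by `P` are fully centralised -/
theorem isDef_Cn_of_le_Cn {b e f : GA k G} {P Q : Subgroup G} (h : IsMaxBP p b P e)
    (hle : BPLE p (Q, f) (P, e)) (hQ : P ≤ Cn Q) : IsDef p (Cn Q) f P := by
  have h1 := (h.fullyCentralized_iff hle).1 (fun x _ => by
    rw [inf_eq_left.2 hQ]; exact Subgroup.card_le_of_le inf_le_left)
  rwa [inf_eq_left.2 hQ] at h1

theorem central_fusion {b e f f' : GA k G} {P Q Q' : Subgroup G} (h : IsMaxBP p b P e)
    (hle : BPLE p (Q, f) (P, e)) (hle' : BPLE p (Q', f') (P, e)) (hQ : P ≤ Cn Q)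
    (hQ' : P ≤ Cn Q') {g : G} (hg : cS g Q = Q') (hgf : cj g f = f') :
    ∃ c ∈ Cn Q', c * g ∈ stabP P e := by
  have he : IsBP p P e := h.1.1
  have hdef : IsDef p (Cn Q') f' (P ⊓ Cn Q') := by
    rw [inf_eq_left.2 hQ']; exact isDef_Cn_of_le_Cn h hle' hQ'
  have h1 : BPLE p (Q', f') (cS g P, cj g e) := by
    have := hle.cj g
    simp only [hg, hgf] at this
    exact this
  have h2 : cS g P ≤ (P ⊓ Nn Q') ⊔ Cn Q' := by
    refine le_trans ?_ le_sup_right
    rw [← hg, ← cS_Cn]
    exact cS_mono g hQ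
  obtain ⟨c, hc, hcle⟩ := hle'.exists_conj_Cn he hdef h1 h2
  refine ⟨c, hc, ?_⟩
  rw [cS_cS, cj_cj] at hcle
  have h3 : cS (c * g) P = P :=
    Subgroup.eq_of_le_of_card_ge hcle.le (by rw [card_cS])
  rw [h3] at hcle
  have h4 : cj (c * g) e = e :=
    he.subpair_unique _ P _ _ rfl hcle Relation.ReflTransGen.refl
  exact ⟨mem_Nn_of_cS_eq h3, h4⟩

end Cfsg.Agent.Lib.Helper78
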