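import Cfsg.Agent.Lib.Helper81.BrauerFeit
import Cfsg.Agent.Lib.Helper78.DefectZero
import Cfsg.Agent.S0928

set_option autoImplicit false
open Cfsg
open scoped ComplexConjugate
open Cfsg.Agent.Lib.Helper20 Cfsg.Agent.Lib.Helper81

namespace Cfsg.Agent.Lib.Helper78

variable {G : Type*} [Group G] [Fintype G] {p : ℕ} {M : Ideal AlgInt}

open Classical in
/-- the sum of `|χ(g)|²` over the `p`-regular elements -/
noncomputable def sqReg (p : ℕ) (χ : G → ℂ) : ℝ :=
  ∑ g : G, if IsPRegular p g then Complex.normSq (χ g) else 0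

open Classical in
/-- the sum of `|χ(g)|²` over the `p`-singular elements -/
noncomputable def sqSing (p : ℕ) (χ : G → ℂ) : ℝ :=
  ∑ g : G, if IsPRegular p g then 0 else Complex.normSq (χ g)

theorem mC_self_eq (χ : G → ℂ) :
    mC p χ χ = (((Nat.card G : ℝ)⁻¹ * sqReg p χ : ℝ) : ℂ) := by
  classical
  simp only [mC, classInner, pRegularPart_eq, sqReg]
  push_cast
  congr 1
  apply Finset.sum_congr rfl; intro g _
  split_ifs
  · rw [Complex.mul_conj]
  · simp

theorem sqReg_add_sqSing (χ : IrrCharacter G) :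
    sqReg p (χ : G → ℂ) + sqSing p (χ : G → ℂ) = Nat.card G := by
  classical
  have h1 := classInner_irr_self χ.2
  have hG : (Nat.card G : ℂ) ≠ 0 := card_ne_zero_complex
  unfold classInner at h1
  have h2 : ∑ g : G, (χ : G → ℂ) g * conj ((χ : G → ℂ) g) = Nat.card G := by
    field_simp at h1
    exact h1
  have h3 : ((sqReg p (χ : G → ℂ) + sqSing p (χ : G → ℂ) : ℝ) : ℂ) = ((Nat.card G : ℝ) : ℂ) := by
    simp only [sqReg, sqSing]
    rw [← Finset.sum_add_distrib]
    push_cast
    rw [← h2]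
    apply Finset.sum_congr rfl; intro g _
    rw [Complex.mul_conj]
    split_ifs <;> simp
  exact_mod_cast h3

theorem sqSing_nonneg (χ : G → ℂ) : 0 ≤ sqSing p χ := by
  classical
  apply Finset.sum_nonneg; intro g _
  split_ifs
  · exact le_refl _
  · exact Complex.normSq_nonneg _

theorem sqReg_pos (hp : p.Prime) (χ : IrrCharacter G) : 0 < sqReg p (χ : G → ℂ) := by
  classical
  apply Finset.sum_pos'
  · intro g _
    split_ifs
    · exact Complex.normSq_nonneg _
    · exact le_refl _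
  · refine ⟨1, Finset.mem_univ _, ?_⟩
    have : IsPRegular p (1 : G) := by
      simp only [IsPRegular, orderOf_one, Nat.dvd_one]
      exact hp.one_lt.ne'
    rw [if_pos this]
    exact Complex.normSq_pos.2 (irr_one_ne_zero χ.2)

theorem eq_zero_of_sqSing_eq_zero {χ : G → ℂ} (h : sqSing p χ = 0) {g : G} (hg : p ∣ orderOf g) :
    χ g = 0 := by
  classical
  unfold sqSing at h
  rw [Finset.sum_eq_zero_iff_of_nonneg] at h
  · have h1 := h g (Finset.mem_univ _)
    rw [if_neg (by simpa [IsPRegular] using hg)] at h1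
    exact Complex.normSq_eq_zero.1 h1
  · intro g _
    split_ifs
    · exact le_refl _
    · exact Complex.normSq_nonneg _

theorem nC_self_pos (hp : p.Prime) (χ : IrrCharacter G) : 0 < nC p χ χ := by
  have h1 := nC_spec hp χ χ
  rw [mC_self_eq] at h1
  have h2 : ((nC p χ χ : ℤ) : ℝ) = ((p ^ (Nat.card G).factorization p : ℕ) : ℝ) *
      ((Nat.card G : ℝ)⁻¹ * sqReg p (χ : G → ℂ)) := by exact_mod_cast h1
  have h3 : (0 : ℝ) < ((nC p χ χ : ℤ) : ℝ) := by
    rw [h2]
    have hG : (0 : ℝ) < Nat.card G := by exact_mod_cast Nat.card_pos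
    have hpp : (0 : ℝ) < ((p ^ (Nat.card G).factorization p : ℕ) : ℝ) := by
      exact_mod_cast pow_pos hp.pos _
    exact mul_pos hpp (mul_pos (inv_pos.2 hG) (sqReg_pos hp χ))
  exact_mod_cast h3

/-- If `p ^ a` divides `p ^ a m_{χχ}`, then `χ` vanishes on the `p`-singular elements. -/
theorem vanish_of_pow_dvd_nC (hp : p.Prime) (χ : IrrCharacter G)
    (h : ((p ^ (Nat.card G).factorization p : ℕ) : ℤ) ∣ nC p χ χ) {g : G} (hg : p ∣ orderOf g) :
    (χ : G → ℂ) g = 0 := by
  apply eq_zero_of_sqSing_eq_zero _ hg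
  obtain ⟨t, ht⟩ := h
  have h1 := nC_spec hp χ χ
  rw [mC_self_eq] at h1
  have h2 : ((nC p χ χ : ℤ) : ℝ) = ((p ^ (Nat.card G).factorization p : ℕ) : ℝ) *
      ((Nat.card G : ℝ)⁻¹ * sqReg p (χ : G → ℂ)) := by exact_mod_cast h1
  have hpp : (0 : ℝ) < ((p ^ (Nat.card G).factorization p : ℕ) : ℝ) := by
    exact_mod_cast pow_pos hp.pos _
  have hG : (0 : ℝ) < Nat.card G := by exact_mod_cast Nat.card_pos
  rw [ht] at h2
  push_cast at h2
  have h3 : (t : ℝ) = (Nat.card G : ℝ)⁻¹ * sqReg p (χ : G → ℂ) := by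
    have hpp' : ((p : ℝ) ^ (Nat.card G).factorization p) ≠ 0 := by
      have := hpp.ne'
      push_cast at this
      exact this
    exact mul_left_cancel₀ hpp' h2
  have h4 : sqReg p (χ : G → ℂ) = t * Nat.card G := by
    rw [h3]; field_simp
  have hpos := sqReg_pos hp χ
  have hadd := sqReg_add_sqSing (p := p) χ
  have hnn := sqSing_nonneg (p := p) (χ : G → ℂ)
  have ht0 : (0 : ℝ) < t := by
    rw [h4] at hpos
    exact (mul_pos_iff_of_pos_right hG).1 hpos
  have ht1 : (1 : ℤ) ≤ t := by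
    have : (0 : ℤ) < t := by exact_mod_cast ht0
    omega
  have ht1' : (1 : ℝ) ≤ t := by exact_mod_cast ht1
  nlinarith

/-- A character with the full power of `p` in its degree is alone in its block. -/
theorem block_eq_singleton_of_nuDeg (hM : IsPModular p M) {B : Set (IrrCharacter G)}
    (hB : IsPBlock M B) {χ : IrrCharacter G} (hχ : χ ∈ B)
    (h : nuDeg p χ = (Nat.card G).factorization p) : B = {χ} := by
  have hdvd := Helper82.isIrr_charDegree_dvd_card χ.2
  obtain ⟨m, hm⟩ := hdvd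
  rw [isPBlock_eq_blockOf hM hB hχ]
  apply blockOf_eq_singleton_of_defect_zero hM χ hm
  intro hpm
  have hm0 : m ≠ 0 := by
    rintro rfl
    rw [mul_zero] at hm
    exact Nat.card_pos.ne' hm
  have h1 : (Nat.card G).factorization p = nuDeg p χ + m.factorization p := by
    rw [hm, Nat.factorization_mul (charDegree_ne_zero χ) hm0]; rfl
  have h2 := (hM.1.dvd_iff_one_le_factorization hm0).1 hpm
  omega

end Cfsg.Agent.Lib.Helper78
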