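import Cfsg.Agent.Lib.Helper78.Contrib2
import Cfsg.Agent.Lib.Helper21.KeyLemma

set_option autoImplicit false
open Cfsg
open scoped ComplexConjugate
open Cfsg.Agent.Lib.Helper20 Cfsg.Agent.Lib.Helper81

namespace Cfsg.Agent.Lib.Helper78

theorem memLocalIdeal_intCast_iff {p : ℕ} {M : Ideal AlgInt} (hM : IsPModular p M) (n : ℤ) :
    MemLocalIdeal M (n : ℂ) ↔ (p : ℤ) ∣ n := by
  rw [Int.natCast_dvd, ← memLocalIdeal_natCast_iff hM]
  rcases intCast_eq_natAbs_or n with h | h
  · rw [h]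
  · rw [h]
    constructor
    · intro h1
      have := memLocalIdeal_neg h1
      rwa [neg_neg] at this
    · exact memLocalIdeal_neg

/-- the arithmetic at the end of the proof of `ν(dim B) = 2a - d` -/
theorem factorization_eq_of_mul_eq {p d : ℕ} (hp : p.Prime) {n x K : ℤ} {X : ℕ}
    (hn : ¬ (p : ℤ) ∣ n) (hx : ¬ (p : ℤ) ∣ x) (h : n * X = (p : ℤ) ^ d * (x ^ 2 - p * K)) :
    X.factorization p = d := by
  have hpz : Prime (p : ℤ) := Nat.prime_iff_prime_int.1 hp
  have hcop : IsCoprime ((p : ℤ) ^ d) n := by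
    apply IsCoprime.pow_left
    exact (Prime.coprime_iff_not_dvd hpz).2 hn
  have h1 : (p : ℤ) ^ d ∣ (X : ℤ) := hcop.dvd_of_dvd_mul_left ⟨_, h⟩
  have h2 : p ^ d ∣ X := by exact_mod_cast h1
  obtain ⟨Y, rfl⟩ := h2
  have hpd : (p : ℤ) ^ d ≠ 0 := pow_ne_zero _ (by exact_mod_cast hp.ne_zero)
  have h3 : n * Y = x ^ 2 - p * K := by
    apply mul_left_cancel₀ hpd
    rw [← h]; push_cast; ring
  have hY : ¬ p ∣ Y := by
    intro hY
    have h4 : (p : ℤ) ∣ x ^ 2 := by
      have h5 : x ^ 2 = n * Y + p * K := by rw [h3]; ring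
      rw [h5]
      exact dvd_add (Dvd.dvd.mul_left (by exact_mod_cast hY) n) (dvd_mul_right _ _)
    exact hx (hpz.dvd_of_dvd_pow h4)
  have hY0 : Y ≠ 0 := by rintro rfl; exact hY (dvd_zero p)
  rw [Nat.factorization_mul (pow_ne_zero _ hp.ne_zero) hY0, hp.factorization_pow]
  simp [Nat.factorization_eq_zero_of_not_dvd hY]

variable {G : Type*} [Group G] [Fintype G] {p : ℕ} {M : Ideal AlgInt}

/-- the degree divided by `p ^ minDeg` -/
noncomputable def xDeg (p : ℕ) (B : Set (IrrCharacter G)) (χ : IrrCharacter G) : ℕ :=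
  charDegree (χ : G → ℂ) / p ^ minDeg p B

theorem xDeg_mul {B : Set (IrrCharacter G)} {χ : IrrCharacter G} (hχ : χ ∈ B) :
    p ^ minDeg p B * xDeg p B χ = charDegree (χ : G → ℂ) := by
  apply Nat.mul_div_cancel'
  exact (pow_dvd_pow p (minDeg_le hχ)).trans (Nat.ordProj_dvd _ p)

theorem xDeg_ne_zero {B : Set (IrrCharacter G)} {χ : IrrCharacter G} (hχ : χ ∈ B) :
    xDeg p B χ ≠ 0 := by
  intro h
  have := xDeg_mul (p := p) hχ
  rw [h, mul_zero] at this
  exact charDegree_ne_zero χ this.symm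

theorem not_dvd_xDeg (hp : p.Prime) {B : Set (IrrCharacter G)} {χ : IrrCharacter G} (hχ : χ ∈ B)
    (h : nuDeg p χ = minDeg p B) : ¬ p ∣ xDeg p B χ := by
  intro hd
  have h1 := xDeg_mul (p := p) hχ
  have h2 : (charDegree (χ : G → ℂ)).factorization p
      = minDeg p B + (xDeg p B χ).factorization p := by
    rw [← h1, Nat.factorization_mul (pow_ne_zero _ hp.ne_zero) (xDeg_ne_zero hχ),
      hp.factorization_pow]
    simp
  have h3 := (hp.dvd_iff_one_le_factorization (xDeg_ne_zero hχ)).1 hd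
  have h4 : nuDeg p χ = (charDegree (χ : G → ℂ)).factorization p := rfl
  omega

/-- `S(v,u) = n' n_v / x_v`. -/
theorem Sm_eq_kC (hM : IsPModular p M) {B : Set (IrrCharacter G)} (u : IrrCharacter G)
    {v : IrrCharacter G} (hv : v ∈ B) :
    Sm p (v : G → ℂ) (u : G → ℂ)
      = ((Nat.card G / p ^ (Nat.card G).factorization p : ℕ) : ℂ) * (kC p B u v : ℂ) /
        (xDeg p B v : ℂ) := by
  rw [Sm_eq_nC hM.1, ← kC_mul hM u hv, ← xDeg_mul (p := p) hv]
  have hp0 : (p : ℂ) ^ minDeg p B ≠ 0 := pow_ne_zero _ (by exact_mod_cast hM.1.ne_zero)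
  have hx0 : (xDeg p B v : ℂ) ≠ 0 := by exact_mod_cast xDeg_ne_zero hv
  push_cast
  field_simp

/-- `n_v x_u ≡ n_u x_v (mod p)`. -/
theorem dvd_kC_mul_sub (hM : IsPModular p M) {B : Set (IrrCharacter G)} (hB : IsPBlock M B)
    {u v : IrrCharacter G} (hu : u ∈ B) (hv : v ∈ B) :
    (p : ℤ) ∣ kC p B u v * xDeg p B u - kC p B u u * xDeg p B v := by
  have h1 := Sm_sub_memLocalIdeal (p := p) hM (isPBlock_sameBlock hM hB hv hu) u
  rw [Sm_eq_kC hM u hv, Sm_eq_kC hM u hu] at h1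
  set n' := Nat.card G / p ^ (Nat.card G).factorization p with hn'
  have hxu : (xDeg p B u : ℂ) ≠ 0 := by exact_mod_cast xDeg_ne_zero hu
  have hxv : (xDeg p B v : ℂ) ≠ 0 := by exact_mod_cast xDeg_ne_zero hv
  have h2 := memLocalIdeal_mul_right hM h1
    (memLocalRing_natCast hM (xDeg p B u * xDeg p B v))
  have h3 : ((n' : ℂ) * (kC p B u v : ℂ) / (xDeg p B v : ℂ)
      - (n' : ℂ) * (kC p B u u : ℂ) / (xDeg p B u : ℂ)) * ((xDeg p B u * xDeg p B v : ℕ) : ℂ)
      = (((n' : ℤ) * (kC p B u v * xDeg p B u - kC p B u u * xDeg p B v) : ℤ) : ℂ) := by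
    push_cast
    field_simp
  rw [h3, memLocalIdeal_intCast_iff hM] at h2
  have hpz : Prime (p : ℤ) := Nat.prime_iff_prime_int.1 hM.1
  rcases hpz.dvd_or_dvd h2 with h | h
  · exact absurd (by exact_mod_cast h) (not_dvd_ordCompl_card (G := G) hM.1)
  · exact h

open Classical in
/-- `p ^ d χ_u° = ∑_{v ∈ B} n_v χ_v`. -/
theorem pow_mul_pRegularPart_eq (hM : IsPModular p M) {B : Set (IrrCharacter G)}
    (hB : IsPBlock M B) [Fintype (IrrCharacter G)] {u : IrrCharacter G} (hu : u ∈ B) (g : G) :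
    (p : ℂ) ^ blockDefect p B * pRegularPart p (u : G → ℂ) g
      = ∑ v : IrrCharacter G, if v ∈ B then (kC p B u v : ℂ) * (v : G → ℂ) g else 0 := by
  rw [pRegularPart_eq_sum_mC]
  simp only [Finset.sum_apply, Pi.smul_apply, smul_eq_mul]
  rw [Finset.mul_sum]
  apply Finset.sum_congr rfl; intro v _
  split_ifs with hv
  · rw [kC_spec hM u hv]; ring
  · have : ¬ SameBlock M (u : G → ℂ) (v : G → ℂ) := by
      intro hs
      apply hv
      rw [isPBlock_eq_blockOf hM hB hu]
      exact hs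
    rw [mC_eq_zero hM this]; ring

open Classical in
/-- `∑_{v ∈ B} x_v χ_v` vanishes on the `p`-singular elements. -/
theorem sum_xDeg_mul_eq_zero (hM : IsPModular p M) {B : Set (IrrCharacter G)}
    (hB : IsPBlock M B) [Fintype (IrrCharacter G)] {g : G} (hg : p ∣ orderOf g) :
    ∑ v : IrrCharacter G, (if v ∈ B then (xDeg p B v : ℂ) * (v : G → ℂ) g else 0) = 0 := by
  have h1 := Cfsg.Agent.Lib.Helper21.blockCoeff_eq_zero_of_singular hM B hB
    (y := g⁻¹) (by rwa [orderOf_inv])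
  have hG : (Nat.card G : ℂ) ≠ 0 := card_ne_zero_complex
  rw [blockCoeff, finsum_mem_irr] at h1
  have h2 := (mul_eq_zero.1 h1).resolve_left (inv_ne_zero hG)
  have hp0 : (p : ℂ) ^ minDeg p B ≠ 0 := pow_ne_zero _ (by exact_mod_cast hM.1.ne_zero)
  apply mul_left_cancel₀ hp0
  rw [mul_zero]
  refine Eq.trans ?_ h2
  rw [Finset.mul_sum]
  apply Finset.sum_congr rfl; intro v _
  split_ifs with hv
  · rw [isCharacter_inv (isCharacter_of_isIrrCharacter v.2), Complex.conj_conj, irr_one_eq,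
      ← xDeg_mul (p := p) hv]
    push_cast; ring
  · simp

theorem pRegularPart_apply_of_reg {θ : G → ℂ} {g : G} (h : IsPRegular p g) :
    pRegularPart p θ g = θ g := by
  classical
  rw [pRegularPart_eq]
  exact if_pos h

theorem pRegularPart_apply_of_sing {θ : G → ℂ} {g : G} (h : ¬ IsPRegular p g) :
    pRegularPart p θ g = 0 := by
  classical
  rw [pRegularPart_eq]
  exact if_neg h

theorem not_dvd_kC_self (hM : IsPModular p M) {B : Set (IrrCharacter G)} (hB : IsPBlock M B)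
    {u : IrrCharacter G} (hu : u ∈ B) (hmin : nuDeg p u = minDeg p B) :
    ¬ (p : ℤ) ∣ kC p B u u := by
  intro hd
  have h0 : blockHeight p B (u : G → ℂ) = 0 := (blockHeight_eq_zero_iff hu).2 hmin
  obtain ⟨hne, hν⟩ := nC_of_height_zero hM hB hu hu h0
  have h1 := kC_mul hM u hu
  obtain ⟨t, ht⟩ := hd
  have h2 : ((p ^ (minDeg p B + 1) : ℕ) : ℤ) ∣ nC p u u := by
    refine ⟨t, ?_⟩
    rw [← h1, ht]; push_cast; ring
  rw [Int.natCast_dvd, hM.1.pow_dvd_iff_le_factorization (Int.natAbs_ne_zero.2 hne)] at h2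
  omega

open Classical in
/-- **Brauer**: the exact power of `p` dividing `∑_{χ ∈ B} (χ(1)/p^{a-d})²` is `p ^ d`. -/
theorem factorization_sum_xDeg_sq (hM : IsPModular p M) {B : Set (IrrCharacter G)}
    (hB : IsPBlock M B) [Fintype (IrrCharacter G)] :
    (∑ v : IrrCharacter G, if v ∈ B then xDeg p B v ^ 2 else 0).factorization p
      = blockDefect p B := by
  have hp := hM.1
  have : Fact p.Prime := ⟨hp⟩
  obtain ⟨u, hu, hmin⟩ := exists_minDeg (p := p) (isPBlock_nonempty hM hB)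
  set d := blockDefect p B with hd
  set μ := minDeg p B with hμ
  set X := ∑ v : IrrCharacter G, (if v ∈ B then xDeg p B v ^ 2 else 0) with hX
  have hadd : d + μ = (Nat.card G).factorization p := blockDefect_add ⟨u, hu⟩
  -- the coefficients
  have hw : ∀ v : IrrCharacter G, ∃ t : ℤ, v ∈ B →
      kC p B u v * xDeg p B u - kC p B u u * xDeg p B v = p * t := by
    intro v
    by_cases hv : v ∈ B
    · obtain ⟨t, ht⟩ := dvd_kC_mul_sub hM hB hu hv
      exact ⟨t, fun _ => ht⟩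
    · exact ⟨0, fun h => absurd h hv⟩
  choose t ht using hw
  set F : G → ℂ := fun g => ∑ v : IrrCharacter G,
    (if v ∈ B then ((p : ℂ) * (t v : ℂ)) * (v : G → ℂ) g else 0) with hF
  have hFeq : ∀ g, F g = (xDeg p B u : ℂ) * ((p : ℂ) ^ d * pRegularPart p (u : G → ℂ) g)
      - (kC p B u u : ℂ) * ∑ v : IrrCharacter G,
        (if v ∈ B then (xDeg p B v : ℂ) * (v : G → ℂ) g else 0) := by
    intro g
    rw [pow_mul_pRegularPart_eq hM hB hu, Finset.mul_sum, Finset.mul_sum, ← Finset.sum_sub_distrib]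
    apply Finset.sum_congr rfl; intro v _
    split_ifs with hv
    · have h1 : ((kC p B u v * xDeg p B u - kC p B u u * xDeg p B v : ℤ) : ℂ)
          = (((p : ℤ) * t v : ℤ) : ℂ) := by rw [ht v hv]
      push_cast at h1
      rw [← h1]; ring
    · simp
  have hFsing : ∀ g, ¬ IsPRegular p g → F g = 0 := by
    intro g hg
    have hg' : p ∣ orderOf g := by simpa [IsPRegular] using hg
    rw [hFeq, sum_xDeg_mul_eq_zero hM hB hg', pRegularPart_apply_of_sing hg]
    simp
  have hFreg : pRegularPart p F = F := by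
    funext g
    by_cases hg : IsPRegular p g
    · exact pRegularPart_apply_of_reg hg
    · rw [pRegularPart_apply_of_sing hg, hFsing g hg]
  obtain ⟨P⟩ : Nonempty (Sylow p G) := inferInstance
  have : Fintype (P : Subgroup G) := Fintype.ofFinite _
  have hsum := sum_pGroup_pRegularPart hp (P : Subgroup G) P.2 F
  rw [hFreg] at hsum
  have hk : ∀ v : IrrCharacter G, ∃ k : ℕ,
      ∑ x : (P : Subgroup G), (v : G → ℂ) (x : G) = (Nat.card (P : Subgroup G) : ℂ) * k := by
    intro v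
    obtain ⟨k, hk⟩ := isCharacter_classInner_nat'
      (isCharacter_restrict (isCharacter_of_isIrrCharacter v.2) (P : Subgroup G))
      (isCharacter_one (G := (P : Subgroup G)))
    refine ⟨k, ?_⟩
    rw [← hk]
    unfold classInner
    have hP0 : (Nat.card (P : Subgroup G) : ℂ) ≠ 0 := by exact_mod_cast Nat.card_pos.ne'
    rw [← mul_assoc, mul_inv_cancel₀ hP0, one_mul]
    apply Finset.sum_congr rfl; intro x _
    simp
  choose k hk using hk
  have hPcard : Nat.card (P : Subgroup G) = p ^ (d + μ) := by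
    rw [hadd]; exact P.card_eq_multiplicity
  set T : ℤ := ∑ v : IrrCharacter G, (if v ∈ B then t v * k v else 0) with hT
  have h1 : F 1 = (p : ℂ) ^ (d + μ + 1) * (T : ℂ) := by
    rw [← hsum]
    simp only [hF]
    rw [Finset.sum_comm, hT]
    push_cast
    rw [Finset.mul_sum]
    apply Finset.sum_congr rfl; intro v _
    split_ifs with hv
    · rw [← Finset.mul_sum, hk v, hPcard]
      push_cast; ring
    · simp
  have h2 : F 1 = (p : ℂ) ^ μ * ((p : ℂ) ^ d * (xDeg p B u : ℂ) ^ 2 - (kC p B u u : ℂ) * (X : ℂ)) := by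
    rw [hFeq, pRegularPart_apply_of_reg (by
      simp only [IsPRegular, orderOf_one, Nat.dvd_one]; exact hp.one_lt.ne'), irr_one_eq,
      ← xDeg_mul (p := p) hu, hX]
    have h3 : ∑ v : IrrCharacter G, (if v ∈ B then (xDeg p B v : ℂ) * (v : G → ℂ) 1 else 0)
        = (p : ℂ) ^ μ * ((∑ v : IrrCharacter G, (if v ∈ B then xDeg p B v ^ 2 else 0) : ℕ) : ℂ) := by
      push_cast
      rw [Finset.mul_sum]
      apply Finset.sum_congr rfl; intro v _
      split_ifs with hv
      · rw [irr_one_eq, ← xDeg_mul (p := p) hv]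
        push_cast; ring
      · simp
    rw [h3]
    push_cast; ring
  have hp0 : (p : ℂ) ^ μ ≠ 0 := pow_ne_zero _ (by exact_mod_cast hp.ne_zero)
  have h4 : (p : ℂ) ^ d * (xDeg p B u : ℂ) ^ 2 - (kC p B u u : ℂ) * (X : ℂ)
      = (p : ℂ) ^ (d + 1) * (T : ℂ) := by
    apply mul_left_cancel₀ hp0
    rw [← h2, h1]; ring
  have h5 : kC p B u u * (X : ℤ) = (p : ℤ) ^ d * ((xDeg p B u : ℤ) ^ 2 - p * T) := by
    have : ((kC p B u u * (X : ℤ) : ℤ) : ℂ)
        = (((p : ℤ) ^ d * ((xDeg p B u : ℤ) ^ 2 - p * T) : ℤ) : ℂ) := by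
      push_cast
      linear_combination -h4
    exact_mod_cast this
  exact factorization_eq_of_mul_eq hp (not_dvd_kC_self hM hB hu hmin)
    (by exact_mod_cast not_dvd_xDeg hp hu hmin) h5

end Cfsg.Agent.Lib.Helper78
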