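import Mathlib
import Cfsg.Agent.Lib.Helper79.GaloisNorm
import Cfsg.Agent.Lib.Helper81.LocalRing
import Cfsg.Agent.Lib.Helper81.Contrib

set_option autoImplicit false
open Cfsg
open Cfsg.Agent.Lib.Helper81

/-! The product of the Galois conjugates of a cyclotomic integer is a rational integer; a
`p`-adic refinement of the arithmetic-geometric mean estimate for totally positive elements. -/

namespace Cfsg.Agent.Lib.Helper78

theorem exists_int_prod_weighted_aux (n : ℕ) [NeZero n] (L : Type) [Field L] [Algebra ℚ L]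
    [IsCyclotomicExtension {n} ℚ L] {I : Type*} [Fintype I] (a : I → ℤ) (μ : I → ℂ)
    (hμ : ∀ i, μ i ^ n = 1) :
    ∃ N : ℤ, (N : ℂ) = ∏ u : (ZMod n)ˣ, ∑ i, (a i : ℂ) * μ i ^ (u : ZMod n).val := by
  classical
  have hn : 0 < n := NeZero.pos n
  have : FiniteDimensional ℚ L := IsCyclotomicExtension.finiteDimensional {n} ℚ L
  have : Algebra.IsAlgebraic ℚ L := Algebra.IsAlgebraic.of_finite ℚ L
  have : IsGalois ℚ L := IsCyclotomicExtension.isGalois {n} ℚ L
  let ι : L →ₐ[ℚ] ℂ := IsAlgClosed.lift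
  have hirr := Polynomial.cyclotomic.irreducible_rat hn
  set η : L := IsCyclotomicExtension.zeta n ℚ L with hη
  have hηp : IsPrimitiveRoot η n := IsCyclotomicExtension.zeta_spec n ℚ L
  have hηC : IsPrimitiveRoot (ι η) n := hηp.map_of_injective ι.toRingHom.injective
  have hex : ∀ i : I, ∃ k : ℕ, (ι η) ^ k = μ i := by
    intro i
    obtain ⟨k, _, hk⟩ := hηC.eq_pow_of_pow_eq_one (hμ i)
    exact ⟨k, hk⟩
  choose k hk using hex
  let α : L := ∑ i, (a i : L) * η ^ (k i)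
  have hσ : ∀ σ : L ≃ₐ[ℚ] L, ι (σ α) =
      ∑ i, (a i : ℂ) *
        μ i ^ ((IsCyclotomicExtension.autEquivPow L hirr σ : (ZMod n)ˣ) : ZMod n).val := by
    intro σ
    have h1 : σ η = η ^ ((IsCyclotomicExtension.autEquivPow L hirr σ : (ZMod n)ˣ) : ZMod n).val :=
      (hηp.autToPow_spec ℚ σ).symm
    simp only [α, map_sum, map_mul, map_intCast, map_pow]
    apply Finset.sum_congr rfl
    intro i _
    rw [h1, map_pow, ← pow_mul, Nat.mul_comm, pow_mul, hk i]
  have hαint : IsIntegral ℤ α := by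
    apply IsIntegral.sum
    intro i _
    apply IsIntegral.mul
    · exact isIntegral_algebraMap (R := ℤ) (x := a i)
    · exact (hηp.isIntegral hn).pow _
  have hNint : IsIntegral ℤ (Algebra.norm ℚ α) := Algebra.isIntegral_norm ℚ hαint
  obtain ⟨N, hN⟩ := IsIntegrallyClosed.isIntegral_iff.mp hNint
  have hprod := Algebra.norm_eq_prod_automorphisms ℚ α
  have h2 : (N : ℂ) = ∏ σ : L ≃ₐ[ℚ] L, ι (σ α) := by
    have := congrArg ι hprod
    rw [map_prod, ← hN] at this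
    simpa using this
  refine ⟨N, h2.trans ?_⟩
  apply Fintype.prod_equiv (IsCyclotomicExtension.autEquivPow L hirr).toEquiv
  intro σ
  rw [hσ σ]
  rfl

theorem exists_int_prod_weighted (n : ℕ) [NeZero n] {I : Type*} [Fintype I] (a : I → ℤ)
    (μ : I → ℂ) (hμ : ∀ i, μ i ^ n = 1) :
    ∃ N : ℤ, (N : ℂ) = ∏ u : (ZMod n)ˣ, ∑ i, (a i : ℂ) * μ i ^ (u : ZMod n).val :=
  @exists_int_prod_weighted_aux n _ (CyclotomicField n ℚ) _ (CyclotomicField.algebra n ℚ)
    inferInstance I _ a μ hμ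

/-- If all conjugates `r u` of a cyclotomic integer are positive reals divisible by `p ^ h` in the
local ring, then their sum is at least `φ(n) p ^ h`. -/
theorem card_units_mul_pow_le_sum {p : ℕ} {M : Ideal AlgInt} (hM : IsPModular p M) (n : ℕ)
    [NeZero n] {I : Type*} [Fintype I] (a : I → ℤ) (μ : I → ℂ) (hμ : ∀ i, μ i ^ n = 1) (h : ℕ)
    (r : (ZMod n)ˣ → ℝ) (hr : ∀ u, 0 < r u)
    (hru : ∀ u : (ZMod n)ˣ, ∑ i, (a i : ℂ) * μ i ^ (u : ZMod n).val = (r u : ℂ))
    (hw : ∀ u : (ZMod n)ˣ, ∃ w, MemLocalRing M w ∧ (r u : ℂ) = (p : ℂ) ^ h * w) :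
    (Fintype.card (ZMod n)ˣ : ℝ) * (p : ℝ) ^ h ≤ ∑ u, r u := by
  classical
  have hp := hM.1
  have hp0 : (0 : ℝ) < (p : ℝ) := by exact_mod_cast hp.pos
  obtain ⟨N, hN⟩ := exists_int_prod_weighted n a μ hμ
  simp only [hru] at hN
  have hN' : (N : ℝ) = ∏ u, r u := by
    apply Complex.ofReal_injective
    rw [Complex.ofReal_prod, ← hN]; simp
  have hNpos : 0 < N := by
    have : (0 : ℝ) < (N : ℝ) := by rw [hN']; exact Finset.prod_pos (fun u _ => hr u)
    exact_mod_cast this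
  obtain ⟨N', rfl⟩ : ∃ N' : ℕ, N = (N' : ℤ) := ⟨N.toNat, (Int.toNat_of_nonneg hNpos.le).symm⟩
  have hN0 : N' ≠ 0 := by
    rintro rfl; simp at hNpos
  choose w hw1 hw2 using hw
  set φ := Fintype.card (ZMod n)ˣ with hφ
  have h1 : (N' : ℂ) = (p : ℂ) ^ (h * φ) * ∏ u, w u := by
    have : (N' : ℂ) = ∏ u, (r u : ℂ) := by rw [← hN]; simp
    rw [this]
    simp only [hw2]
    rw [Finset.prod_mul_distrib, Finset.prod_const, Finset.card_univ, ← pow_mul]
  have hpk : p ^ (h * φ) ≠ 0 := pow_ne_zero _ hp.ne_zero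
  have h2 : MemLocalRing M ((N' : ℂ) / ((p ^ (h * φ) : ℕ) : ℂ)) := by
    have hpc : ((p ^ (h * φ) : ℕ) : ℂ) ≠ 0 := by exact_mod_cast hpk
    have : (N' : ℂ) / ((p ^ (h * φ) : ℕ) : ℂ) = ∏ u, w u := by
      rw [h1]; push_cast; push_cast at hpc; field_simp
    rw [this]
    exact memLocalRing_prod hM _ _ (fun u _ => hw1 u)
  rw [memLocalRing_natCast_div_iff hM hN0 hpk, hp.factorization_pow] at h2
  simp only [Finsupp.single_eq_same] at h2
  have h3 : p ^ (h * φ) ≤ N' :=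
    Nat.le_of_dvd (Nat.pos_of_ne_zero hN0) ((hp.pow_dvd_iff_le_factorization hN0).2 h2)
  have h4 : (1 : ℝ) ≤ ∏ u : (ZMod n)ˣ, r u / (p : ℝ) ^ h := by
    rw [Finset.prod_div_distrib, Finset.prod_const, Finset.card_univ, ← pow_mul, ← hN',
      le_div_iff₀ (by positivity), one_mul]
    exact_mod_cast h3
  have h5 := Cfsg.Agent.Lib.Helper79.card_le_sum_of_one_le_prod Finset.univ
    (fun u : (ZMod n)ˣ => r u / (p : ℝ) ^ h) (fun u _ => div_pos (hr u) (by positivity)) h4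
  rw [Finset.card_univ, ← Finset.sum_div, le_div_iff₀ (by positivity)] at h5
  exact h5

end Cfsg.Agent.Lib.Helper78
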