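import Mathlib
import Cfsg.Agent.Lib.Helper78.NormInt
import Cfsg.Agent.Lib.Helper81.SambaleMajor
import Cfsg.Agent.Lib.Helper81.SubsecVal

set_option autoImplicit false
set_option linter.unusedSectionVars false
open Cfsg
open scoped ComplexConjugate
open Cfsg.Agent.Lib.Helper20 Cfsg.Agent.Lib.Helper81

/-! Galois average of the diagonal contribution of a major subsection at a character of
height `h`: it is at least `p ^ (h - d)`. -/

namespace Cfsg.Agent.Lib.Helper78

variable {G : Type*} [Group G] [Fintype G] {p : ℕ} {M : Ideal AlgInt} {H : Subgroup G} [Fintype H]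
  {y : G} {n : ℕ} {b : Set (IrrCharacter H)} {B : Set (IrrCharacter G)}

theorem major_mS_self_pos (D : SubsecData p M H y n b B) (hd : blockDefect p b = blockDefect p B)
    {χ : IrrCharacter G} (hχ : χ ∈ B) [Fintype (IrrCharacter G)] :
    0 < rowR p H b B y (χ : G → ℂ) := by
  classical
  have hM := D.hM
  obtain ⟨χ₀, hχ₀, h0⟩ := exists_height_zero (p := p) (⟨χ, hχ⟩ : B.Nonempty)
  obtain ⟨w, _, hw2, hw3⟩ := major_unit D hd hχ₀ hχ h0
  have hw0 : w ≠ 0 := ne_zero_of_not_memLocalIdeal hM hw2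
  have hp0 : (p : ℂ) ≠ 0 := by exact_mod_cast hM.1.ne_zero
  have h1 : mS p H b y (χ₀ : G → ℂ) (χ : G → ℂ) ≠ 0 := by
    intro h
    rw [h, mul_zero] at hw3
    exact (mul_ne_zero (pow_ne_zero _ hp0) hw0) hw3.symm
  have h2 : mS p H b y (χ : G → ℂ) (χ₀ : G → ℂ) ≠ 0 := by
    rw [← mS_conj]
    exact (map_ne_zero _).2 h1
  rw [rowR]
  apply Finset.sum_pos' 
  · intro ψ _
    split_ifs
    · positivity
    · exact le_refl _
  · refine ⟨χ₀, Finset.mem_univ _, ?_⟩
    rw [if_pos hχ₀]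
    have := norm_pos_iff.2 h2
    positivity

theorem major_avg (D : SubsecData p M H y n b B) (hd : blockDefect p b = blockDefect p B)
    {χ : IrrCharacter G} (hχ : χ ∈ B) (N : ℕ) [NeZero N] (hN : p ^ n ∣ N) :
    (Fintype.card (ZMod N)ˣ : ℝ) * (p : ℝ) ^ blockHeight p B (χ : G → ℂ)
      ≤ ∑ u : (ZMod N)ˣ, (p : ℝ) ^ blockDefect p B *
          (mS p H b (y ^ (u : ZMod N).val) (χ : G → ℂ) (χ : G → ℂ)).re := by
  classical
  have : Finite (IrrCharacter H) := finite_irrCharacter
  have : Fintype (IrrCharacter H) := Fintype.ofFinite _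
  have : Finite (IrrCharacter G) := finite_irrCharacter
  have : Fintype (IrrCharacter G) := Fintype.ofFinite _
  have hM := D.hM
  have hcop : ∀ u : (ZMod N)ˣ, Nat.Coprime (u : ZMod N).val (p ^ n) := fun u =>
    Nat.Coprime.coprime_dvd_right hN (ZMod.val_coe_unit_coprime u)
  have hrow : ∀ u : (ZMod N)ˣ, ((rowR p H b B (y ^ (u : ZMod N).val) (χ : G → ℂ) : ℝ) : ℂ)
      = mS p H b (y ^ (u : ZMod N).val) (χ : G → ℂ) (χ : G → ℂ) := fun u =>
    rowR_eq (D.pow (hcop u)) _
  have key := card_units_mul_pow_le_sum hM N (aC H p b χ χ) (muS D) (fun i => muS_pow D i hN)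
    (blockHeight p B (χ : G → ℂ))
    (fun u => (p : ℝ) ^ blockDefect p B * rowR p H b B (y ^ (u : ZMod N).val) (χ : G → ℂ))
    (fun u => mul_pos (pow_pos (by exact_mod_cast hM.1.pos) _)
      (major_mS_self_pos (D.pow (hcop u)) hd hχ))
    (fun u => by
      rw [← pow_mul_mS_eq D, hd, ← hrow u]
      push_cast; rfl)
    (fun u => ⟨_, memLocalRing_mul hM (Omega_memLocalRing (D.pow (hcop u)) χ χ)
        (unit_factor hM hχ).1, by
      rw [← pow_mS_eq_Omega hM.1, ← hrow u]
      push_cast; rfl⟩)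
  refine key.trans (le_of_eq ?_)
  apply Finset.sum_congr rfl; intro u _
  rw [← hrow u, Complex.ofReal_re]

end Cfsg.Agent.Lib.Helper78
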