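import Mathlib
import Cfsg.Agent.Lib.Helper78.MajorAvg
import Cfsg.Agent.Lib.Helper5.AbNilNorm

set_option autoImplicit false
set_option linter.unusedSectionVars false
open Cfsg
open scoped ComplexConjugate
open Cfsg.Agent.Lib.Helper20 Cfsg.Agent.Lib.Helper81 Cfsg.Agent.Lib.Helper5

/-! The number of (classes of) major subsections of a block `B` of defect `d` is at most
`p ^ (d - h)` for every height `h` occurring in `B`. -/

namespace Cfsg.Agent.Lib.Helper78

variable {G : Type*} [Group G] [Fintype G] {p : ℕ} {M : Ideal AlgInt}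

/-- `(x, β)` is a major subsection of `B` -/
def IsMajorAt (p : ℕ) (M : Ideal AlgInt) (B : Set (IrrCharacter G)) (x : G)
    (β : Set (IrrCharacter (Subgroup.centralizer ({x} : Set G)))) : Prop :=
  IsInducedBlock M (Subgroup.centralizer ({x} : Set G)) β B ∧ blockDefect p β = blockDefect p B

open Classical in
theorem major_local_bound (hM : IsPModular p M) (x : G) {n : ℕ} (hn : orderOf x = p ^ n)
    (N : ℕ) [NeZero N] (hN : p ^ n ∣ N) {B : Set (IrrCharacter G)} {χ : IrrCharacter G}
    (hχ : χ ∈ B) :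
    (Nat.card {β : Set (IrrCharacter (Subgroup.centralizer ({x} : Set G))) //
        IsMajorAt p M B x β} : ℝ)
        * ((Fintype.card (ZMod N)ˣ : ℝ) * (p : ℝ) ^ blockHeight p B (χ : G → ℂ))
      ≤ (p : ℝ) ^ blockDefect p B *
        ∑ u : (ZMod N)ˣ, (mS p (Subgroup.centralizer ({x} : Set G)) Set.univ
            (x ^ (u : ZMod N).val) (χ : G → ℂ) (χ : G → ℂ)).re := by
  have : Finite (IrrCharacter (Subgroup.centralizer ({x} : Set G))) := finite_irrCharacter
  have : Fintype (IrrCharacter (Subgroup.centralizer ({x} : Set G))) := Fintype.ofFinite _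
  have : Fintype (Set (IrrCharacter (Subgroup.centralizer ({x} : Set G)))) := Fintype.ofFinite _
  have hxH := mem_centralizer_singleton_self x
  have hyc : (⟨x, hxH⟩ : Subgroup.centralizer ({x} : Set G)) ∈
      Subgroup.center (Subgroup.centralizer ({x} : Set G)) := by
    rw [Subgroup.mem_center_iff]; intro g; apply Subtype.ext
    simp only [Subgroup.coe_mul]
    exact (comm_centralizer_singleton x g).symm
  have hcard : Nat.card {β : Set (IrrCharacter (Subgroup.centralizer ({x} : Set G))) //
        IsMajorAt p M B x β}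
      = ∑ β : Set (IrrCharacter (Subgroup.centralizer ({x} : Set G))),
          if IsMajorAt p M B x β then 1 else 0 := by
    rw [Nat.card_eq_fintype_card, Fintype.card_subtype, Finset.card_filter]
  rw [hcard]
  push_cast
  rw [Finset.sum_mul, Finset.mul_sum]
  calc ∑ β : Set (IrrCharacter (Subgroup.centralizer ({x} : Set G))),
        (if IsMajorAt p M B x β then (1 : ℝ) else 0)
          * ((Fintype.card (ZMod N)ˣ : ℝ) * (p : ℝ) ^ blockHeight p B (χ : G → ℂ))
      ≤ ∑ β : Set (IrrCharacter (Subgroup.centralizer ({x} : Set G))),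
        ∑ u : (ZMod N)ˣ,
        (if IsMajorAt p M B x β then
          (p : ℝ) ^ blockDefect p B * (mS p (Subgroup.centralizer ({x} : Set G)) β
            (x ^ (u : ZMod N).val) (χ : G → ℂ) (χ : G → ℂ)).re else 0) := by
        apply Finset.sum_le_sum; intro β _
        by_cases hβ : IsMajorAt p M B x β
        · simp only [if_pos hβ, one_mul]
          exact major_avg ⟨hM, hn, hxH, comm_centralizer_singleton x, le_rfl, hβ.1⟩ hβ.2 hχ N hN
        · simp [if_neg hβ]
    _ = ∑ u : (ZMod N)ˣ,
        ∑ β : Set (IrrCharacter (Subgroup.centralizer ({x} : Set G))),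
        (if IsMajorAt p M B x β then
          (p : ℝ) ^ blockDefect p B * (mS p (Subgroup.centralizer ({x} : Set G)) β
            (x ^ (u : ZMod N).val) (χ : G → ℂ) (χ : G → ℂ)).re else 0) := Finset.sum_comm
    _ ≤ _ := by
        apply Finset.sum_le_sum; intro u _
        have h1 := sum_blocks_mS (p := p) (Subgroup.centralizer ({x} : Set G)) hM ⟨x, hxH⟩ hyc
          (u : ZMod N).val χ
        have h2 := congrArg Complex.re h1
        rw [Complex.re_sum] at h2
        show _ ≤ (p : ℝ) ^ blockDefect p B * (mS p (Subgroup.centralizer ({x} : Set G)) Set.univ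
          (((⟨x, hxH⟩ : Subgroup.centralizer ({x} : Set G)) : G) ^ (u : ZMod N).val)
          (χ : G → ℂ) (χ : G → ℂ)).re
        rw [← h2, Finset.mul_sum]
        apply Finset.sum_le_sum; intro β _
        by_cases hβ : IsMajorAt p M B x β
        · rw [if_pos hβ, if_pos hβ.1.1]
        · rw [if_neg hβ]
          apply mul_nonneg (by positivity)
          split_ifs
          · exact mS_self_re_nonneg _ _ _ _
          · simp

open Classical in
/-- the number of major subsections is at most `p ^ (d - h)` -/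
theorem major_count_le (hM : IsPModular p M) {B : Set (IrrCharacter G)} {χ : IrrCharacter G}
    (hχ : χ ∈ B) (X : Finset G) (hX : ∀ x ∈ X, ∃ k : ℕ, orderOf x = p ^ k)
    (hXrep : ∀ g : G, (∃ k : ℕ, orderOf g = p ^ k) → ∃! x, x ∈ X ∧ IsConj g x) :
    (∑ x ∈ X, Nat.card {β : Set (IrrCharacter (Subgroup.centralizer ({x} : Set G))) //
        IsMajorAt p M B x β}) * p ^ blockHeight p B (χ : G → ℂ) ≤ p ^ blockDefect p B := by
  have hp := hM.1
  have hN0 : p * Nat.card G ≠ 0 := mul_ne_zero hp.ne_zero Nat.card_pos.ne'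
  have : NeZero (p * Nat.card G) := ⟨hN0⟩
  set N := p * Nat.card G with hNdef
  have hφ : (0 : ℝ) < (Fintype.card (ZMod N)ˣ : ℝ) := by
    exact_mod_cast Fintype.card_pos
  have h1 : ∀ x ∈ X, (Nat.card {β : Set (IrrCharacter (Subgroup.centralizer ({x} : Set G))) //
        IsMajorAt p M B x β} : ℝ)
        * ((Fintype.card (ZMod N)ˣ : ℝ) * (p : ℝ) ^ blockHeight p B (χ : G → ℂ))
      ≤ (p : ℝ) ^ blockDefect p B *
        ∑ u : (ZMod N)ˣ, (mS p (Subgroup.centralizer ({x} : Set G)) Set.univ
            (x ^ (u : ZMod N).val) (χ : G → ℂ) (χ : G → ℂ)).re := by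
    intro x hx
    obtain ⟨n, hn⟩ := hX x hx
    apply major_local_bound hM x hn N _ hχ
    rw [← hn]
    exact (orderOf_dvd_natCard x).trans (Dvd.intro_left _ rfl)
  have h2 := Finset.sum_le_sum h1
  rw [← Finset.sum_mul, ← Finset.mul_sum, Finset.sum_comm] at h2
  have h3 : ∀ u : (ZMod N)ˣ, ∑ x ∈ X, (mS p (Subgroup.centralizer ({x} : Set G)) Set.univ
            (x ^ (u : ZMod N).val) (χ : G → ℂ) (χ : G → ℂ)).re = 1 := by
    intro u
    have hj : Nat.Coprime (u : ZMod N).val p :=
      Nat.Coprime.coprime_dvd_right (Dvd.intro _ rfl) (ZMod.val_coe_unit_coprime u)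
    have := congrArg Complex.re (sum_mS_univ_eq_one hp χ X hX hXrep _ hj)
    rw [Complex.re_sum] at this
    simpa using this
  simp only [h3] at h2
  rw [Finset.sum_const, Finset.card_univ, nsmul_eq_mul, mul_one] at h2
  have h4 : ((∑ x ∈ X, Nat.card {β : Set (IrrCharacter (Subgroup.centralizer ({x} : Set G))) //
        IsMajorAt p M B x β} : ℕ) : ℝ) * (p : ℝ) ^ blockHeight p B (χ : G → ℂ)
      ≤ (p : ℝ) ^ blockDefect p B := by
    push_cast
    nlinarith [h2, hφ]
  exact_mod_cast h4

end Cfsg.Agent.Lib.Helper78
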