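import Mathlib
import Cfsg.Agent.Lib.Helper78.CenterFusion
import Cfsg.Agent.Lib.Helper78.HeightNum
import Cfsg.Agent.Lib.Helper5.AbNilPair

set_option autoImplicit false
set_option linter.unusedSectionVars false
set_option linter.style.haveILetI false
open Cfsg
open Cfsg.Agent.Lib.Helper20 Cfsg.Agent.Lib.Helper81 Cfsg.Agent.Lib.Helper80
open Cfsg.Agent.Lib.Helper80.GA Cfsg.Agent.Lib.Helper5

/-! The elements of the centre of a defect group give many major subsections. -/

namespace Cfsg.Agent.Lib.Helper78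

variable {p : ℕ} [Fact p.Prime] {M : Ideal AlgInt} (hM : IsPModular p M)
  {G : Type*} [Group G] [Fintype G]

theorem le_Cn_zpowers {P : Subgroup G} {u : G} (huc : ∀ d ∈ P, d * u = u * d) :
    P ≤ Cn (Subgroup.zpowers u) := by
  intro d hd
  rw [← centralizer_singleton_eq, Subgroup.mem_centralizer_iff]
  intro v hv
  rw [Set.mem_singleton_iff] at hv
  rw [hv]
  exact (huc d hd).symm

/-- a central element of the defect group gives a major subsection at a representative -/
theorem exists_major_data {B : Set (IrrCharacter G)} (hB : IsPBlock M B) {P : Subgroup G}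
    {e : GA (Kr hM) G} (h : IsMaxBP p (blkR hM B) P e) (X : Finset G)
    (hXrep : ∀ g : G, (∃ k : ℕ, orderOf g = p ^ k) → ∃! x, x ∈ X ∧ IsConj g x)
    (u : G) (hu : u ∈ P) (huc : ∀ d ∈ P, d * u = u * d) :
    ∃ x ∈ X, ∃ g : G, g * u * g⁻¹ = x ∧ ∃ f : GA (Kr hM) G,
      BPLE p (Subgroup.zpowers u, f) (P, e) ∧
      ∃ β : Set (IrrCharacter (Subgroup.centralizer ({x} : Set G))),
        IsMajorAt p M B x β ∧
        bl hM (Subgroup.centralizer ({x} : Set G)) β = cj g f := by
  obtain ⟨x, hxX, g, hg, f, hle, β, hind, hbl⟩ := exists_data hM hB h X hXrep u hu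
  refine ⟨x, hxX, g, hg, f, hle, β, ⟨hind, ?_⟩, hbl⟩
  have hdef := (isDef_Cn_of_le_Cn h hle (le_Cn_zpowers huc)).cj g
  rw [cS_Cn, cS_zpowers, hg, ← centralizer_singleton_eq, ← hbl] at hdef
  have h1 := isDefectGroup_of_isDef_sub hM _ hind.1 hdef
  have : Fintype (Subgroup.centralizer ({x} : Set G)) := Fintype.ofFinite _
  have h2 := Cfsg.Agent.Lib.Helper21.card_defectGroup hM β hind.1 _ h1
  have h3 := Cfsg.Agent.Lib.Helper21.card_defectGroup hM B hB P
    (isDefectGroup_of_isDef hM hB h.isDef)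
  have h4 : Nat.card ((cS g P).subgroupOf (Subgroup.centralizer ({x} : Set G))) = Nat.card P := by
    rw [Nat.card_congr (Subgroup.subgroupOfEquivOfLe hdef.le).toEquiv, card_cS]
  rw [h4, h3] at h2
  exact (Nat.pow_right_injective (Fact.out : p.Prime).two_le h2).symm

include hM in
open Classical in
/-- there are at least `|Z(P)| / E` major subsections, `E` a bound for the orbits of the
stabiliser of the maximal pair on `Z(P)` -/
theorem center_card_le {B : Set (IrrCharacter G)} (hB : IsPBlock M B) {P : Subgroup G}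
    {e : GA (Kr hM) G} (h : IsMaxBP p (blkR hM B) P e) (X : Finset G)
    (hXrep : ∀ g : G, (∃ k : ℕ, orderOf g = p ^ k) → ∃! x, x ∈ X ∧ IsConj g x) (E : ℕ)
    (hE : ∀ z ∈ P, (∀ d ∈ P, d * z = z * d) →
      Nat.card {z' : G // ∃ t ∈ stabP P e, z' = t * z * t⁻¹} ≤ E) :
    Nat.card (Subgroup.center P) ≤ E *
      ∑ x ∈ X, Nat.card {β : Set (IrrCharacter (Subgroup.centralizer ({x} : Set G))) //
          IsMajorAt p M B x β} := by
  have hfin : ∀ x : G, Finite (IrrCharacter (Subgroup.centralizer ({x} : Set G))) :=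
    fun x => finite_irrCharacter
  have hcen : ∀ z : Subgroup.center P, ∀ d ∈ P, d * ((z : P) : G) = ((z : P) : G) * d := by
    intro z d hd
    have := Subgroup.mem_center_iff.1 z.2 ⟨d, hd⟩
    exact congrArg Subtype.val this
  have hex : ∀ z : Subgroup.center P, _ :=
    fun z => exists_major_data hM hB h X hXrep ((z : P) : G) (z : P).2 (hcen z)
  choose x hxX g hg f hle β hmaj hbl using hex
  let T := Σ y : {y // y ∈ X},
      {β : Set (IrrCharacter (Subgroup.centralizer ({(y : G)} : Set G))) //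
          IsMajorAt p M B (y : G) β}
  have hT : Nat.card T = ∑ x ∈ X,
      Nat.card {β : Set (IrrCharacter (Subgroup.centralizer ({x} : Set G))) //
          IsMajorAt p M B x β} := by
    rw [Nat.card_sigma]
    exact Finset.sum_coe_sort X
      (fun x => Nat.card {β : Set (IrrCharacter (Subgroup.centralizer ({x} : Set G))) //
          IsMajorAt p M B x β})
  rw [← hT]
  let Φ : Subgroup.center P → T := fun z => ⟨⟨x z, hxX z⟩, ⟨β z, hmaj z⟩⟩
  let Ψ : T → G × GA (Kr hM) G :=
    fun t => ((t.1 : G), bl hM (Subgroup.centralizer ({(t.1 : G)} : Set G)) t.2.1)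
  have : Finite T := inferInstance
  have : Fintype T := Fintype.ofFinite T
  have : Fintype (Subgroup.center P) := Fintype.ofFinite _
  rw [Nat.card_eq_fintype_card, Nat.card_eq_fintype_card, ← Finset.card_univ, ← Finset.card_univ]
  apply Finset.card_le_mul_card_image_of_maps_to (f := Φ) (fun _ _ => Finset.mem_univ _)
  intro t _
  by_cases hne : (Finset.univ.filter (fun z => Φ z = t)).Nonempty
  · obtain ⟨z₀, hz₀⟩ := hne
    rw [Finset.mem_filter] at hz₀
    refine le_trans ?_ (hE ((z₀ : P) : G) (z₀ : P).2 (hcen z₀))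
    rw [← Fintype.card_coe, ← Nat.card_eq_fintype_card]
    have key : ∀ z : {z // z ∈ Finset.univ.filter (fun z => Φ z = t)},
        ∃ s ∈ stabP P e, (((z : Subgroup.center P) : P) : G)
          = s * ((z₀ : P) : G) * s⁻¹ := by
      rintro ⟨z, hz⟩
      rw [Finset.mem_filter] at hz
      have huv : Φ z₀ = Φ z := hz₀.2.trans hz.2.symm
      have h1 := congrArg Ψ huv
      simp only [Φ, Ψ, Prod.mk.injEq] at h1
      obtain ⟨hx, hb⟩ := h1
      rw [hbl z₀, hbl z] at hb
      have hgu : ((g z)⁻¹ * g z₀) * ((z₀ : P) : G) * ((g z)⁻¹ * g z₀)⁻¹ = ((z : P) : G) := by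
        have : ((g z)⁻¹ * g z₀) * ((z₀ : P) : G) * ((g z)⁻¹ * g z₀)⁻¹
            = (g z)⁻¹ * (g z₀ * ((z₀ : P) : G) * (g z₀)⁻¹) * g z := by group
        rw [this, hg z₀, hx, ← hg z]; group
      have hcf : cj ((g z)⁻¹ * g z₀) (f z₀) = f z := by
        rw [← GA.cj_cj, hb, GA.cj_inv_cj]
      obtain ⟨c, hc, hcs⟩ := central_fusion h (hle z₀) (hle z) (le_Cn_zpowers (hcen z₀))
        (le_Cn_zpowers (hcen z)) (g := (g z)⁻¹ * g z₀) (by rw [cS_zpowers, hgu]) hcf
      refine ⟨_, hcs, ?_⟩
      have hcz : c * ((z : P) : G) * c⁻¹ = ((z : P) : G) := by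
        have := mem_Cn.1 hc _ (Subgroup.mem_zpowers ((z : P) : G))
        rw [← this, mul_inv_cancel_right]
      calc ((z : P) : G) = c * ((z : P) : G) * c⁻¹ := hcz.symm
        _ = c * (((g z)⁻¹ * g z₀) * ((z₀ : P) : G) * ((g z)⁻¹ * g z₀)⁻¹) * c⁻¹ := by rw [hgu]
        _ = _ := by group
    apply Nat.card_le_card_of_injective
      (fun z : {z // z ∈ Finset.univ.filter (fun z => Φ z = t)} =>
        (⟨(((z : Subgroup.center P) : P) : G), key z⟩ :
          {z' : G // ∃ s ∈ stabP P e, z' = s * ((z₀ : P) : G) * s⁻¹}))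
    intro z z' hzz
    have := congrArg Subtype.val hzz
    exact Subtype.ext (Subtype.ext (Subtype.ext this))
  · rw [Finset.not_nonempty_iff_eq_empty] at hne
    rw [hne]; simp

end Cfsg.Agent.Lib.Helper78
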